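/-
A nontrivial element of `r`-power order (with `r` different from the characteristic) commuting with a nontrivial
unipotent element forces `r` to divide `q^i - 1` for some `i ≤ n - 2`.
-/
import Cfsg.Agent.Lib.SemiSimple.Mat
import Cfsg.Agent.Lib.SylowLarge.Val
import Cfsg.Agent.Lib.SLn.Basic
import Cfsg.Agent.Lib.Classical.SLBasic
import Mathlib

set_option autoImplicit false

namespace Cfsg.Agent.Lib.SemiSimple.Commuting

open Polynomial Module Cfsg.Agent.Lib.SemiSimple.Basic Cfsg.Agent.Lib.SemiSimple.Mat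
open scoped MatrixGroups

universe u

variable {F : Type u} [Field F]

/-- Monic associate of an irreducible polynomial. -/
lemma exists_monic_assoc {g₀ : F[X]} (h : Irreducible g₀) :
    ∃ g : F[X], g.Monic ∧ Irreducible g ∧ g ∣ g₀ ∧ g₀ ∣ g := by
  have hlc : g₀.leadingCoeff ≠ 0 := leadingCoeff_ne_zero.mpr h.ne_zero
  have hunit : IsUnit (C g₀.leadingCoeff⁻¹ : F[X]) := isUnit_C.mpr (IsUnit.mk0 _ (inv_ne_zero hlc))
  refine ⟨g₀ * C g₀.leadingCoeff⁻¹, monic_mul_leadingCoeff_inv h.ne_zero, (irreducible_mul_isUnit hunit).2 h, ?_, dvd_mul_right _ _⟩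
  exact (hunit.mul_right_dvd).2 dvd_rfl

variable {V : Type u} [AddCommGroup V] [Module F V] [FiniteDimensional F V]

/-- An element not the identity and semisimple has a nontrivial irreducible factor. -/
lemma exists_factor [Nontrivial V] (T : V →ₗ[F] V) (hT : IsSS T) (hT1 : T ≠ 1) :
    ∃ g : F[X], g.Monic ∧ Irreducible g ∧ g ∣ T.charpoly ∧ g ≠ X - C 1 := by
  obtain ⟨s, hs, h0⟩ := hT
  set m := minpoly F T with hm
  have hmons : m ∣ s := minpoly.dvd F _ h0
  have hmsq : Squarefree m := hs.squarefree_of_dvd hmons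
  have hmdvd : m ∣ T.charpoly := LinearMap.minpoly_dvd_charpoly T
  have hint : IsIntegral F T := Algebra.IsIntegral.isIntegral T
  have hmonic : m.Monic := minpoly.monic hint
  have hX : Irreducible (X - C (1 : F)) := irreducible_X_sub_C 1
  have hXm : (X - C (1 : F)).Monic := monic_X_sub_C 1
  have key : ∀ m₁ : F[X], m₁ ∣ m → ¬ IsUnit m₁ → ¬ (X - C (1 : F)) ∣ m₁ →
      ∃ g : F[X], g.Monic ∧ Irreducible g ∧ g ∣ T.charpoly ∧ g ≠ X - C 1 := by
    intro m₁ h1 h2 h3
    have hne : m₁ ≠ 0 := by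
      rintro rfl
      rw [zero_dvd_iff] at h1
      exact hmonic.ne_zero h1
    obtain ⟨g₀, hg₀, hdvd⟩ := WfDvdMonoid.exists_irreducible_factor h2 hne
    obtain ⟨g, hgm, hgi, hg1, hg2⟩ := exists_monic_assoc hg₀
    refine ⟨g, hgm, hgi, (hg1.trans hdvd).trans (h1.trans hmdvd), ?_⟩
    rintro rfl
    exact h3 (hg1.trans hdvd)
  by_cases hXd : (X - C (1 : F)) ∣ m
  · obtain ⟨m₁, hm₁⟩ := hXd
    apply key m₁ ⟨X - C 1, by rw [hm₁, mul_comm]⟩
    · intro hu
      have h2 : m = X - C 1 := by
        have h3 : m₁ = 1 := by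
          have h4 : m₁.Monic := by
            apply hXm.of_mul_monic_left
            rw [← hm₁]
            exact hmonic
          exact h4.eq_one_of_isUnit hu
        rw [hm₁, h3, mul_one]
      apply hT1
      have h5 := minpoly.aeval F T
      rw [← hm, h2] at h5
      simp only [map_sub, aeval_X, map_one] at h5
      exact sub_eq_zero.1 h5
    · rintro ⟨w, hw⟩
      have h6 : (X - C (1 : F)) * (X - C 1) ∣ m := ⟨w, by rw [hm₁, hw, mul_assoc]⟩
      exact hX.not_isUnit (hmsq _ h6)
  · apply key m dvd_rfl _ hXd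
    intro hu
    have h3 : m = 1 := hmonic.eq_one_of_isUnit hu
    have h5 := minpoly.aeval F T
    rw [← hm, h3, map_one] at h5
    exact one_ne_zero h5

/-- A nontrivial factor of an element of `r`-power order gives a divisibility. -/
lemma dvd_of_factor [Fintype F] (r s : ℕ) [Fact r.Prime] (T : V →ₗ[F] V) (hT : IsSS T) (hTR : T ^ (r ^ s) = 1)
    (g : F[X]) (hgm : g.Monic) (hgi : Irreducible g) (hgd : g ∣ T.charpoly) (hg1 : g ≠ X - C 1) :
    r ∣ Fintype.card F ^ g.natDegree - 1 := by
  classical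
  obtain ⟨V₁, _, _, _, T₁, Φ, hΦ⟩ := exists_split_of_dvd _ V T hT g hgi hgm hgd rfl
  have hrp : r.Prime := Fact.out
  have : Fact (Irreducible g) := ⟨hgi⟩
  have hroot : (AdjoinRoot.root g) ^ (r ^ s) = 1 := by
    have h1 := aeval_split T T₁ Φ hΦ (X ^ (r ^ s) - 1) (Φ.symm (1, 0))
    have h2 : aeval T (X ^ (r ^ s) - 1 : F[X]) = 0 := by
      simp [hTR]
    rw [h2] at h1
    simp only [LinearMap.zero_apply, map_zero, LinearEquiv.apply_symm_apply, mul_one] at h1
    have h3 := congrArg Prod.fst h1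
    simp only [Prod.fst_zero, map_sub, map_pow, AdjoinRoot.mk_X, map_one] at h3
    exact (sub_eq_zero.1 h3.symm)
  have hne1 : AdjoinRoot.root g ≠ 1 := by
    intro h
    have h1 : AdjoinRoot.mk g (X - C 1) = 0 := by
      simp [h]
    have h2 : g ∣ X - C 1 := AdjoinRoot.mk_eq_zero.1 h1
    exact hg1 (eq_of_monic_of_associated hgm (monic_X_sub_C 1) (hgi.associated_of_dvd (irreducible_X_sub_C 1) h2))
  have hne0 : AdjoinRoot.root g ≠ 0 := by
    intro h
    rw [h, zero_pow (pow_pos hrp.pos _).ne'] at hroot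
    exact zero_ne_one hroot
  let K := AdjoinRoot g
  have hfr : Module.finrank F K = g.natDegree := by
    rw [PowerBasis.finrank (AdjoinRoot.powerBasis hgi.ne_zero)]
    simp [AdjoinRoot.powerBasis_dim]
  have hfin : Module.Finite F K := (AdjoinRoot.powerBasis hgi.ne_zero).finite
  let _ : Fintype K := Module.fintypeOfFintype (AdjoinRoot.powerBasis hgi.ne_zero).basis
  have hcard : Fintype.card K = Fintype.card F ^ g.natDegree := by
    rw [← hfr]
    exact Module.card_eq_pow_finrank
  let u : Kˣ := Units.mk0 (AdjoinRoot.root g) hne0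
  have hu : u ^ (r ^ s) = 1 := by
    apply Units.ext
    simpa [u] using hroot
  have hu1 : u ≠ 1 := by
    intro h
    apply hne1
    have := congrArg Units.val h
    simpa [u] using this
  obtain ⟨t, _, ht⟩ := (Nat.dvd_prime_pow hrp).1 (orderOf_dvd_of_pow_eq_one hu)
  have ht0 : t ≠ 0 := by
    rintro rfl
    rw [pow_zero, orderOf_eq_one_iff] at ht
    exact hu1 ht
  have h1 : r ∣ orderOf u := by
    rw [ht]
    exact dvd_pow_self r ht0
  have h2 : orderOf u ∣ Nat.card Kˣ := orderOf_dvd_natCard u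
  rw [Nat.card_units, Nat.card_eq_fintype_card, hcard] at h2
  exact h1.trans h2

omit [FiniteDimensional F V] in
lemma commute_aeval (A T : V →ₗ[F] V) (h : A * T = T * A) (P : F[X]) : A * aeval T P = aeval T P * A := by
  induction P using Polynomial.induction_on with
  | C a =>
    simp only [aeval_C]
    exact (Algebra.commutes a A).symm
  | add a b ha hb => simp only [map_add, mul_add, add_mul, ha, hb]
  | monomial n a ih =>
    have e : C a * X ^ (n + 1) = (C a * X ^ n) * X := by ring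
    rw [e, map_mul, aeval_X, ← mul_assoc, ih, mul_assoc, h, mul_assoc]

/-- The main lemma. -/
theorem exists_small_of_commute [Fintype F] (r s : ℕ) [Fact r.Prime] (T A : V →ₗ[F] V) (hT : IsSS T)
    (hTR : T ^ (r ^ s) = 1) (hT1 : T ≠ 1) (hcomm : A * T = T * A) (hA1 : A ≠ 1) (hnil : IsNilpotent (A - 1))
    (hn : 3 ≤ finrank F V) :
    ∃ i, 1 ≤ i ∧ i + 2 ≤ finrank F V ∧ r ∣ Fintype.card F ^ i - 1 := by
  classical
  by_contra hne
  push Not at hne
  have hV : Nontrivial V := Module.nontrivial_of_finrank_pos (R := F) (by omega)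
  -- all nontrivial factors are large
  have hlarge : ∀ g : F[X], g.Monic → Irreducible g → g ∣ T.charpoly → g ≠ X - C 1 →
      finrank F V ≤ g.natDegree + 1 := by
    intro g hgm hgi hgd hg1
    by_contra hc
    exact hne g.natDegree hgi.natDegree_pos (by omega) (dvd_of_factor r s T hT hTR g hgm hgi hgd hg1)
  obtain ⟨g, hgm, hgi, hgd, hg1⟩ := exists_factor T hT hT1
  have hdeg := hlarge g hgm hgi hgd hg1
  obtain ⟨V₁, _, _, _, T₁, Φ, hΦ⟩ := exists_split_of_dvd _ V T hT g hgi hgm hgd rfl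
  have hc := charpoly_of_split hgm T T₁ Φ hΦ
  have hfr : finrank F V = g.natDegree + finrank F V₁ := by
    have h1 := congrArg natDegree hc
    rwa [natDegree_mul hgm.ne_zero (LinearMap.charpoly_monic T₁).ne_zero, LinearMap.charpoly_natDegree,
      LinearMap.charpoly_natDegree] at h1
  have hV₁ : finrank F V₁ ≤ 1 := by omega
  -- `T₁` is the identity
  have hT₁ : T₁ = 1 := by
    by_cases h0 : finrank F V₁ = 0
    · have : Subsingleton V₁ := Module.finrank_zero_iff.1 h0
      ext x
      exact Subsingleton.elim _ _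
    · have h1 : finrank F V₁ = 1 := by omega
      have hmon := LinearMap.charpoly_monic T₁
      have hdeg1 : T₁.charpoly.natDegree = 1 := by rw [LinearMap.charpoly_natDegree, h1]
      have hirr : Irreducible T₁.charpoly := irreducible_of_degree_eq_one (by
        rw [degree_eq_natDegree hmon.ne_zero, hdeg1]
        rfl)
      have hd : T₁.charpoly ∣ T.charpoly := by
        rw [hc]
        exact dvd_mul_left _ _
      have heq : T₁.charpoly = X - C 1 := by
        by_contra hcon
        have := hlarge _ hmon hirr hd hcon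
        omega
      have hCH := LinearMap.aeval_self_charpoly T₁
      rw [heq] at hCH
      simp only [map_sub, aeval_X, map_one] at hCH
      exact sub_eq_zero.1 hCH
  -- a spanning vector of `V₁`
  obtain ⟨w, hw⟩ : ∃ w : V₁, ∀ y : V₁, ∃ c : F, y = c • w := by
    by_cases h0 : finrank F V₁ = 0
    · have : Subsingleton V₁ := Module.finrank_zero_iff.1 h0
      exact ⟨0, fun y => ⟨0, Subsingleton.elim _ _⟩⟩
    · have h1 : finrank F V₁ = 1 := by omega
      obtain ⟨v, _, hv⟩ := finrank_eq_one_iff'.1 h1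
      exact ⟨v, fun y => by
        obtain ⟨c, hc⟩ := hv y
        exact ⟨c, hc.symm⟩⟩
  have haeT₁ : ∀ (P : F[X]) (y : V₁), aeval T₁ P y = P.eval 1 • y := by
    intro P y
    rw [hT₁]
    have h1 : (1 : V₁ →ₗ[F] V₁) = algebraMap F (V₁ →ₗ[F] V₁) 1 := (map_one _).symm
    rw [h1, aeval_algebraMap_apply]
    simp
  have hg1v : g.eval 1 ≠ 0 := by
    intro h
    have h1 : (X - C 1) ∣ g := dvd_iff_isRoot.2 h
    exact hg1 (eq_of_monic_of_associated hgm (monic_X_sub_C 1) ((irreducible_X_sub_C 1).associated_of_dvd hgi h1).symm)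
  set v₀ := Φ.symm (1, w) with hv₀
  have hcyc : ∀ x : V, ∃ P : F[X], x = aeval T P v₀ := by
    intro x
    obtain ⟨P₀, hP₀⟩ := AdjoinRoot.mk_surjective (Φ x).1
    obtain ⟨c, hc'⟩ := hw (Φ x).2
    refine ⟨P₀ + g * C ((c - P₀.eval 1) / g.eval 1), ?_⟩
    apply Φ.injective
    rw [aeval_split T T₁ Φ hΦ, hv₀, LinearEquiv.apply_symm_apply]
    apply Prod.ext
    · simp only [mul_one, map_add, map_mul, AdjoinRoot.mk_self, zero_mul, add_zero, hP₀]
    · simp only [haeT₁]
      rw [hc']
      congr 1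
      simp only [eval_add, eval_mul, eval_C]
      field_simp
      ring
  obtain ⟨P₁, hP₁⟩ := hcyc (A v₀)
  have hAeq : A = aeval T P₁ := by
    ext x
    obtain ⟨P, rfl⟩ := hcyc x
    have h1 : A (aeval T P v₀) = aeval T P (A v₀) := by
      have := congrArg (fun f : V →ₗ[F] V => f v₀) (commute_aeval A T hcomm P)
      exact this
    rw [h1, hP₁]
    have h2 : aeval T P (aeval T P₁ v₀) = (aeval T P * aeval T P₁) v₀ := rfl
    have h3 : aeval T P₁ (aeval T P v₀) = (aeval T P₁ * aeval T P) v₀ := rfl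
    rw [h2, h3, ← map_mul, ← map_mul, mul_comm]
  apply hA1
  obtain ⟨k, hk⟩ := hnil
  obtain ⟨s', hs', h0'⟩ := hT
  have hmons : minpoly F T ∣ s' := minpoly.dvd F _ h0'
  have hmsq : Squarefree (minpoly F T) := hs'.squarefree_of_dvd hmons
  have hA0 : A - 1 = aeval T (P₁ - 1) := by
    rw [map_sub, map_one, ← hAeq]
  rw [hA0, ← map_pow] at hk
  have h5 : minpoly F T ∣ (P₁ - 1) ^ k := minpoly.dvd F _ hk
  have hk0 : k ≠ 0 := by
    rintro rfl
    simp only [pow_zero, map_one] at hk
    exact one_ne_zero hk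
  have h6 : minpoly F T ∣ P₁ - 1 := (hmsq.dvd_pow_iff_dvd hk0).1 h5
  have h7 : aeval T (P₁ - 1) = 0 := by
    obtain ⟨Q, hQ⟩ := h6
    rw [hQ, map_mul, minpoly.aeval, zero_mul]
  rw [← hA0] at h7
  exact sub_eq_zero.1 h7

end Cfsg.Agent.Lib.SemiSimple.Commuting
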