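/-
Lifting commuting elements of `G/Z(G)` with one of order `p` when `Z(G)` has exponent prime to `p`.
-/
import Cfsg.Agent.Lib.SemiSimple.Commuting
import Mathlib

set_option autoImplicit false

namespace Cfsg.Agent.Lib.SemiSimple.Lift

open Polynomial Module Cfsg.Agent.Lib.SemiSimple.Basic Cfsg.Agent.Lib.SemiSimple.Mat
  Cfsg.Agent.Lib.SemiSimple.Commuting
open scoped MatrixGroups

theorem lift_commuting {G : Type*} [Group G] [Finite G] (p e : ℕ) [Fact p.Prime] (he : Nat.Coprime p e)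
    (hZ : ∀ z ∈ Subgroup.center G, z ^ e = 1) (a b : G ⧸ Subgroup.center G) (ha : orderOf a = p) (hab : Commute a b)
    (r : ℕ) (hr : r.Prime) (hrb : r ∣ orderOf b) :
    ∃ (A T : G) (s : ℕ), A ^ p = 1 ∧ A ≠ 1 ∧ T ^ (r ^ s) = 1 ∧ T ≠ 1 ∧ A * T = T * A := by
  have hp : p.Prime := Fact.out
  let π : G →* G ⧸ Subgroup.center G := QuotientGroup.mk' _
  have hπ : ∀ x, π x = 1 ↔ x ∈ Subgroup.center G := fun x => QuotientGroup.eq_one_iff x
  obtain ⟨A₀, hA₀⟩ := QuotientGroup.mk'_surjective (Subgroup.center G) a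
  obtain ⟨B₀, hB₀⟩ := QuotientGroup.mk'_surjective (Subgroup.center G) b
  change π A₀ = a at hA₀
  change π B₀ = b at hB₀
  have haone : a ^ p = 1 := by
    rw [← ha]
    exact pow_orderOf_eq_one a
  have hA₀p : A₀ ^ p ∈ Subgroup.center G := by
    rw [← hπ, map_pow, hA₀, haone]
  -- CRT
  obtain ⟨⟨k, hk1, hk2⟩⟩ : Nonempty {k // k ≡ 1 [MOD p] ∧ k ≡ 0 [MOD e]} := ⟨Nat.chineseRemainder he 1 0⟩
  have hkmod : e ∣ k := (Nat.modEq_zero_iff_dvd).1 hk2
  set A := A₀ ^ k with hA
  have hπA : π A = a := by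
    rw [hA, map_pow, hA₀]
    have h1 : a ^ k = a ^ 1 := by
      rw [pow_eq_pow_iff_modEq, ha]
      exact hk1
    rw [h1, pow_one]
  have hAp : A ^ p = 1 := by
    obtain ⟨t, rfl⟩ := hkmod
    rw [hA, ← pow_mul, show e * t * p = (p * e) * t by ring, pow_mul, pow_mul, hZ _ hA₀p, one_pow]
  have hA1 : A ≠ 1 := by
    intro h
    have h1 : a = 1 := by
      rw [← hπA, h, map_one]
    rw [h1, orderOf_one] at ha
    exact hp.one_lt.ne ha
  -- commuting
  have hcomm : A * B₀ = B₀ * A := by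
    have h1 : π (B₀ * A * B₀⁻¹ * A⁻¹) = 1 := by
      simp only [map_mul, map_inv, hπA, hB₀]
      have := hab.eq
      rw [← this]
      group
    rw [hπ] at h1
    set z := B₀ * A * B₀⁻¹ * A⁻¹ with hz
    have hz1 : B₀ * A * B₀⁻¹ = z * A := by
      rw [hz]
      group
    have hzc : ∀ g : G, g * z = z * g := fun g => (Subgroup.mem_center_iff.1 h1) g
    have hzp : z ^ p = 1 := by
      have h2 : (B₀ * A * B₀⁻¹) ^ p = 1 := by
        have : (B₀ * A * B₀⁻¹) ^ p = B₀ * A ^ p * B₀⁻¹ := conj_pow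
        rw [this, hAp]
        group
      rw [hz1] at h2
      have h3 : Commute z A := (hzc A).symm
      rw [h3.mul_pow, hAp, mul_one] at h2
      exact h2
    have hze : z ^ e = 1 := hZ z h1
    have hz1' : z = 1 := by
      have h6 : orderOf z ∣ Nat.gcd p e :=
        Nat.dvd_gcd (orderOf_dvd_of_pow_eq_one hzp) (orderOf_dvd_of_pow_eq_one hze)
      rw [he.gcd_eq_one] at h6
      exact orderOf_eq_one_iff.1 (Nat.dvd_one.1 h6)
    rw [hz1', one_mul] at hz1
    have h7 : B₀ * A = A * B₀ := mul_inv_eq_iff_eq_mul.1 hz1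
    exact h7.symm
  -- the `r`-part
  have ho : orderOf B₀ ≠ 0 := (orderOf_pos B₀).ne'
  obtain ⟨s, o', ho', hoe⟩ := Nat.exists_eq_pow_mul_and_not_dvd ho r hr.ne_one
  refine ⟨A, B₀ ^ o', s, hAp, hA1, ?_, ?_, ?_⟩
  · rw [← pow_mul, mul_comm, ← hoe]
    exact pow_orderOf_eq_one B₀
  · intro h
    have h1 : b ^ o' = 1 := by
      rw [← hB₀, ← map_pow, h, map_one]
    exact ho' (hrb.trans (orderOf_dvd_of_pow_eq_one h1))
  · exact (Commute.pow_right hcomm o')

variable {F : Type*} [Field F] [Fintype F]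

/-- The matrix form of the commuting lemma. -/
theorem small_of_commute_SL (p : ℕ) [Fact p.Prime] [CharP F p] {n : ℕ} (hn : 3 ≤ n)
    (A T : Matrix.SpecialLinearGroup (Fin n) F) (r s : ℕ) [Fact r.Prime] (hrp : r ≠ p) (hAp : A ^ p = 1) (hA1 : A ≠ 1)
    (hTR : T ^ (r ^ s) = 1) (hT1 : T ≠ 1) (hcomm : A * T = T * A) :
    ∃ i, 1 ≤ i ∧ i + 2 ≤ n ∧ r ∣ Fintype.card F ^ i - 1 := by
  have hpp : p.Prime := Fact.out
  have hrr : r.Prime := Fact.out
  let LT := Matrix.toLin' T.1
  let LA := Matrix.toLin' A.1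
  have hfr : finrank F (Fin n → F) = n := by simp
  have hmT : T.1 ^ (r ^ s) = 1 := by
    have := congrArg Subtype.val hTR
    simpa using this
  have hmA : A.1 ^ p = 1 := by
    have := congrArg Subtype.val hAp
    simpa using this
  have hSS : IsSS LT := by
    rw [isSS_iff]
    have hcast : ((r ^ s : ℕ) : F) ≠ 0 := by
      intro h
      have h1 := (CharP.cast_eq_zero_iff F p (r ^ s)).1 h
      have h2 := hpp.dvd_of_dvd_pow h1
      exact hrp ((Nat.prime_dvd_prime_iff_eq hpp hrr).1 h2).symm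
    refine ⟨X ^ (r ^ s) - 1, ?_, ?_⟩
    · have hsep : (X ^ (r ^ s) - C (1 : F)).Separable := Polynomial.separable_X_pow_sub_C 1 hcast one_ne_zero
      rw [C_1] at hsep
      exact hsep.squarefree
    · simp [hmT]
  have hTR' : LT ^ (r ^ s) = 1 := by
    simp only [LT]
    rw [← Matrix.toLin'_pow, hmT, Matrix.toLin'_one]
    rfl
  have hT1' : LT ≠ 1 := by
    intro h
    apply hT1
    apply Subtype.ext
    apply Matrix.toLin'.injective
    rw [Matrix.SpecialLinearGroup.coe_one, Matrix.toLin'_one]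
    exact h
  have hA1' : LA ≠ 1 := by
    intro h
    apply hA1
    apply Subtype.ext
    apply Matrix.toLin'.injective
    rw [Matrix.SpecialLinearGroup.coe_one, Matrix.toLin'_one]
    exact h
  have hm : A.1 * T.1 = T.1 * A.1 := congrArg Subtype.val hcomm
  have hc' : LA * LT = LT * LA := by
    calc LA * LT = Matrix.toLin' (A.1 * T.1) := (Matrix.toLin'_mul A.1 T.1).symm
      _ = Matrix.toLin' (T.1 * A.1) := by rw [hm]
      _ = LT * LA := Matrix.toLin'_mul T.1 A.1
  have hne : Nonempty (Fin n) := ⟨⟨0, by omega⟩⟩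
  have hnil : IsNilpotent (LA - 1) := by
    have h1 : (A.1 - 1) ^ p = 0 := by
      rw [sub_pow_char_of_commute p (Commute.one_right _), hmA, one_pow, sub_self]
    refine ⟨p, ?_⟩
    have h2 : LA - 1 = Matrix.toLin' (A.1 - 1) := by
      rw [map_sub, Matrix.toLin'_one]
      rfl
    rw [h2, ← Matrix.toLin'_pow, h1, map_zero]
  obtain ⟨i, h1, h2, h3⟩ := exists_small_of_commute r s LT LA hSS hTR' hT1' hc' hA1' hnil (by rw [hfr]; exact hn)
  exact ⟨i, h1, by rwa [hfr] at h2, h3⟩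

/-- Order of `SL_m` for `m ≥ 1`. -/
lemma card_SL_eq {m : ℕ} :
    Nat.card (Matrix.SpecialLinearGroup (Fin (m + 1)) F) =
      Fintype.card F ^ ((m + 1).choose 2) * ∏ j ∈ Finset.range m, (Fintype.card F ^ (j + 2) - 1) := by
  have hq : 2 ≤ Fintype.card F := Fintype.one_lt_card
  have h1 := Cfsg.Agent.Lib.Classical.SLBasic.card_gl_eq_mul_card_sl (ι := Fin (m + 1)) (F := F)
  rw [Matrix.card_GL_field, Cfsg.Agent.Lib.SylowLarge.Val.prod_gl _ (by omega), Finset.prod_range_succ'] at h1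
  have h2 : Fintype.card F - 1 ≠ 0 := by omega
  apply Nat.eq_of_mul_eq_mul_left (Nat.pos_of_ne_zero h2)
  rw [← h1]
  simp only [zero_add, pow_one]
  ring

/-- Prime divisors of `|SL_m|`. -/
lemma dvd_card_SL {m r : ℕ} (hm : 2 ≤ m) (i : ℕ) (h1 : 1 ≤ i) (h2 : i ≤ m) (h3 : r ∣ Fintype.card F ^ i - 1) :
    r ∣ Nat.card (Matrix.SpecialLinearGroup (Fin m) F) := by
  have hq : 2 ≤ Fintype.card F := Fintype.one_lt_card
  obtain ⟨m', rfl⟩ : ∃ m', m = m' + 1 := ⟨m - 1, by omega⟩
  rw [card_SL_eq]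
  apply Dvd.dvd.mul_left
  by_cases hi : i = 1
  · subst hi
    have h4 : Fintype.card F ^ 1 - 1 ∣ Fintype.card F ^ (0 + 2) - 1 := by
      rw [pow_one]
      have : Fintype.card F ^ (0 + 2) - 1 = (Fintype.card F - 1) * (Fintype.card F + 1) := by
        obtain ⟨t, ht⟩ : ∃ t, Fintype.card F = t + 1 := ⟨Fintype.card F - 1, by omega⟩
        rw [ht]
        simp only [Nat.add_sub_cancel, zero_add]
        have : (t + 1) ^ 2 = t * (t + 1 + 1) + 1 := by ring
        omega
      rw [this]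
      exact dvd_mul_right _ _
    exact (h3.trans h4).trans (Finset.dvd_prod_of_mem (fun j => Fintype.card F ^ (j + 2) - 1) (Finset.mem_range.2 (by omega)))
  · have h5 : i - 2 ∈ Finset.range m' := Finset.mem_range.2 (by omega)
    have h6 := Finset.dvd_prod_of_mem (fun j => Fintype.card F ^ (j + 2) - 1) h5
    rw [Nat.sub_add_cancel (by omega)] at h6
    exact h3.trans h6

lemma p_dvd_card_SL (p : ℕ) [Fact p.Prime] [CharP F p] {m : ℕ} (hm : 2 ≤ m) :
    p ∣ Nat.card (Matrix.SpecialLinearGroup (Fin m) F) := by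
  obtain ⟨m', rfl⟩ : ∃ m', m = m' + 1 := ⟨m - 1, by omega⟩
  rw [card_SL_eq]
  apply Dvd.dvd.mul_right
  obtain ⟨f, hpp, hf⟩ := FiniteField.card F p
  have h1 : p ∣ Fintype.card F := by
    rw [hf]
    exact dvd_pow_self p f.ne_zero
  have h2 : (m' + 1).choose 2 ≠ 0 := by
    apply (Nat.choose_pos (by omega)).ne'
  exact h1.trans (dvd_pow_self _ h2)

lemma center_SL_exponent {n : ℕ} (z : Matrix.SpecialLinearGroup (Fin n) F) (hz : z ∈ Subgroup.center (Matrix.SpecialLinearGroup (Fin n) F)) :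
    z ^ (Fintype.card F - 1) = 1 := by
  obtain ⟨c, hc, hcz⟩ := Matrix.SpecialLinearGroup.mem_center_iff.1 hz
  apply Subtype.ext
  have hc0 : c ≠ 0 ∨ IsEmpty (Fin n) := by
    by_cases hn : n = 0
    · subst hn
      exact Or.inr inferInstance
    · left
      rintro rfl
      rw [Fintype.card_fin, zero_pow hn] at hc
      exact zero_ne_one hc
  rcases hc0 with hc0 | he
  · have hpow : c ^ (Fintype.card F - 1) = 1 := FiniteField.pow_card_sub_one_eq_one c hc0
    simp only [Matrix.SpecialLinearGroup.coe_pow, Matrix.SpecialLinearGroup.coe_one]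
    rw [← hcz, ← map_pow, hpow, map_one]
  · ext i
    exact he.elim i

/-- Result for `PSL`. -/
theorem psl_result (p : ℕ) [Fact p.Prime] [CharP F p] (n : ℕ) (hn : 4 ≤ n)
    (a b : Matrix.ProjectiveSpecialLinearGroup (Fin n) F) (ha : orderOf a = p) (hab : Commute a b) :
    (orderOf b).primeFactors ⊆ (Nat.card (Matrix.SpecialLinearGroup (Fin (n - 2)) F)).primeFactors := by
  intro r hr
  have hrp := Nat.prime_of_mem_primeFactors hr
  have hrd := Nat.dvd_of_mem_primeFactors hr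
  have hpp : p.Prime := Fact.out
  rw [Nat.mem_primeFactors]
  refine ⟨hrp, ?_, Nat.card_pos.ne'⟩
  by_cases hrep : r = p
  · subst hrep
    exact p_dvd_card_SL r (by omega)
  have hcop : Nat.Coprime p (Fintype.card F - 1) := by
    rw [Nat.Prime.coprime_iff_not_dvd hpp]
    intro h
    obtain ⟨f, _, hf⟩ := FiniteField.card F p
    have h1 : p ∣ Fintype.card F := by
      rw [hf]
      exact dvd_pow_self p f.ne_zero
    have hq : 2 ≤ Fintype.card F := Fintype.one_lt_card
    have h2 : p ∣ Fintype.card F - (Fintype.card F - 1) := Nat.dvd_sub h1 h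
    have h3 : Fintype.card F - (Fintype.card F - 1) = 1 := by omega
    rw [h3] at h2
    exact hpp.one_lt.ne' (Nat.dvd_one.1 h2)
  obtain ⟨A, T, s, h1, h2, h3, h4, h5⟩ := lift_commuting p (Fintype.card F - 1) hcop center_SL_exponent a b ha hab r hrp hrd
  have : Fact r.Prime := ⟨hrp⟩
  obtain ⟨i, h6, h7, h8⟩ := small_of_commute_SL p (by omega) A T r s hrep h1 h2 h3 h4 h5
  exact dvd_card_SL (by omega) i h6 (by omega) h8

end Cfsg.Agent.Lib.SemiSimple.Lift
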